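import Mathlib
import Cfsg.Agent.Lib.Helper35.JR.Defs
import Cfsg.Agent.Lib.Helper43.AutPSL2.Main

/-!
# Project JR (S3206): package [KEY0]

An automorphism of `PSL₂(F)` of 2-power order fixing `A` and `B` is conjugation by an element
of the four-group `V₀`, provided `Aut(F)` has no nontrivial 2-elements.
-/

set_option autoImplicit false

namespace Cfsg.Agent.Lib.Helper43.JR

open Matrix Cfsg.Agent.Lib.Helper35.JR Cfsg.Agent.Lib.Helper43.AutPSL2

universe u

theorem pkgKey0 : PkgV0.{u} → PkgKey0.{u} := by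
  intro hV0 F _ _ h2 a b h hσ α k hk hA hB
  obtain ⟨p, _, n, hp, hF⟩ := FiniteField.card' F
  have : Fact p.Prime := ⟨hp⟩
  have hf : 1 ≤ (n : ℕ) := n.pos
  obtain ⟨g, c, σ, hα⟩ := aut_structure hf hF α
  have hσ1 : σ = 1 := by
    have htw : twHom hf hF α = σ := by
      apply twHom_eq
      rw [hα]
      have := tw_mul (tw_mul (tw_conj g) (tw_dAut c)) (tw_fAut σ)
      rwa [one_mul, one_mul] at this
    apply hσ σ k
    rw [← htw, ← map_pow, hk, map_one]
  subst hσ1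
  rw [fAut_one, map_one, mul_one] at hα
  obtain ⟨G, rfl⟩ := pm_surjective g
  let D : Matrix (Fin 2) (Fin 2) F := !![(c : F), 0; 0, 1]
  let H : Matrix (Fin 2) (Fin 2) F := (G : Matrix (Fin 2) (Fin 2) F) * D
  have hdD : ∀ M : Matrix.SpecialLinearGroup (Fin 2) F,
      (dFun c M : Matrix (Fin 2) (Fin 2) F) * D = D * (M : Matrix (Fin 2) (Fin 2) F) := by
    intro M
    have hc : (c : F)⁻¹ * (c : F) = 1 := inv_mul_cancel₀ c.ne_zero
    ext i j
    fin_cases i <;> fin_cases j <;>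
      simp [D, Matrix.mul_apply, Fin.sum_univ_two, mul_comm]
  have hαM : ∀ M : Matrix.SpecialLinearGroup (Fin 2) F,
      α (pm M) = pm (G * dFun c M * G⁻¹) := by
    intro M
    rw [hα]
    show MulAut.conj (pm G) (pslAut (dAut c) (pm M)) = _
    rw [pslAut_pm, MulAut.conj_apply, dAut_apply, ← map_inv, ← map_mul, ← map_mul]
  have hkey : ∀ M : Matrix.SpecialLinearGroup (Fin 2) F,
      ((G * dFun c M * G⁻¹ : Matrix.SpecialLinearGroup (Fin 2) F) : Matrix (Fin 2) (Fin 2) F) * H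
        = H * (M : Matrix (Fin 2) (Fin 2) F) := by
    intro M
    have e2 : ((G * dFun c M * G⁻¹ : Matrix.SpecialLinearGroup (Fin 2) F) :
        Matrix (Fin 2) (Fin 2) F) * (G : Matrix (Fin 2) (Fin 2) F)
        = (G : Matrix (Fin 2) (Fin 2) F) * (dFun c M : Matrix (Fin 2) (Fin 2) F) := by
      rw [← Matrix.SpecialLinearGroup.coe_mul, ← Matrix.SpecialLinearGroup.coe_mul,
        inv_mul_cancel_right]
    show _ * ((G : Matrix (Fin 2) (Fin 2) F) * D) = (G : Matrix (Fin 2) (Fin 2) F) * D * _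
    rw [← mul_assoc, e2, mul_assoc, hdD, ← mul_assoc]
  have hcomm : ∀ X : Matrix.SpecialLinearGroup (Fin 2) F, α (pm X) = pm X →
      H * (X : Matrix (Fin 2) (Fin 2) F) = (X : Matrix (Fin 2) (Fin 2) F) * H ∨
      H * (X : Matrix (Fin 2) (Fin 2) F) = -((X : Matrix (Fin 2) (Fin 2) F) * H) := by
    intro X hX
    rw [hαM] at hX
    rcases (pm_eq_iff _ _).mp hX with e | e
    · left; rw [← hkey, e]
    · right; rw [← hkey, e, neg_mul]
  obtain ⟨c', hc'⟩ := hV0 F h2 a b h H (hcomm (elA F) hA) (hcomm (elB a b h) hB)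
  have hdetH : H.det = (c : F) := by
    show ((G : Matrix (Fin 2) (Fin 2) F) * D).det = _
    rw [Matrix.det_mul, G.2, one_mul]
    simp [D, Matrix.det_fin_two_of]
  have hX : ∃ X : Matrix.SpecialLinearGroup (Fin 2) F, pm X ∈ V0 a b h ∧
      H = c' • (X : Matrix (Fin 2) (Fin 2) F) := by
    rcases hc' with e | e | e | e
    · exact ⟨1, Or.inl (map_one pm), e⟩
    · exact ⟨elA F, Or.inr (Or.inl rfl), e⟩
    · exact ⟨elB a b h, Or.inr (Or.inr (Or.inl rfl)), e⟩
    · exact ⟨elA F * elB a b h, Or.inr (Or.inr (Or.inr (map_mul pm _ _))), e⟩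
  obtain ⟨X, hXV, hHX⟩ := hX
  have hc'0 : c' ≠ 0 := by
    rintro rfl
    rw [zero_smul] at hHX
    rw [hHX, Matrix.det_zero] at hdetH
    exact c.ne_zero hdetH.symm
  refine ⟨pm X, hXV, ?_⟩
  intro x
  obtain ⟨M, rfl⟩ := pm_surjective x
  rw [hαM, ← map_inv, ← map_mul, ← map_mul]
  congr 1
  rw [eq_mul_inv_iff_mul_eq]
  apply Subtype.ext
  rw [Matrix.SpecialLinearGroup.coe_mul, Matrix.SpecialLinearGroup.coe_mul]
  have h3 := hkey M
  rw [hHX, Matrix.mul_smul, Matrix.smul_mul] at h3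
  exact smul_right_injective _ hc'0 h3

end Cfsg.Agent.Lib.Helper43.JR
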